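/-
`PSL₂(19)` and `PSL₄(3)` are `(2,5,5)`-generated; `A₁₃` is generated by elements of types `3²`, `3⁴`.
-/
import Mathlib
import Cfsg.Agent.PERM.CG
import Cfsg.Agent.KSG.ShortGenSL
import Cfsg.Agent.KSG.AltPres

set_option autoImplicit false
set_option maxRecDepth 100000

namespace CL.E72

namespace GenL

open CL.K CL.PM CL.CG Matrix Matrix.SpecialLinearGroup

theorem gen_of {G X : Type*} [Group G] [Group X] (π : G →* X) (hs : Function.Surjective π)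
    (hk : ∀ g, π g = 1 → ∀ h, h * g = g * h) {a b t : G} (h2 : π (a ^ 2) = 1) (h5 : π (b ^ 5) = 1)
    (h5' : π ((a * b) ^ 5) = 1) (n1 : t * b ≠ b * t) (n2 : t * (a * b) ≠ a * b * t) (hg : Subgroup.closure {a, b} = ⊤) :
    ∃ a b : X, a ^ 2 = 1 ∧ b ^ 5 = 1 ∧ (a * b) ^ 5 = 1 ∧ b ≠ 1 ∧ a * b ≠ 1 ∧ Subgroup.closure {a, b} = ⊤ :=
  ⟨π a, π b, map_pow π a 2 ▸ h2, map_pow π b 5 ▸ h5, by rwa [← map_mul, ← map_pow], fun e => n1 (hk _ e t),
    fun e => n2 (hk _ (map_mul π a b ▸ e) t), by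
      rw [← Set.image_pair, ← MonoidHom.map_closure, hg, Subgroup.map_top_of_surjective _ hs]⟩

theorem mem_w {G : Type*} [Group G] {φ : G → ℕ} {mul : ℕ → ℕ → ℕ} {one : ℕ} (C : IsCode φ mul one) {a b : G} {x y : ℕ}
    (ha : φ a = x) (hb : φ b = y) (W : List (ℕ × List ℕ)) (h : wordsB mul one [x, y] W = true) {g : G}
    (hg : φ g ∈ W.map Prod.fst) : g ∈ Subgroup.closure {a, b} :=
  C.mem_iff.1 (C.mem_of_wordsB (by
    simp only [List.forall_mem_cons, List.not_mem_nil, IsEmpty.forall_iff, implies_true, and_true, ← ha, ← hb, C.mem_iff]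
    exact ⟨Subgroup.subset_closure (.inl rfl), Subgroup.subset_closure (.inr rfl)⟩) h _ hg)

theorem isCode_SL {p n w M W CM RM m s QM X : ℕ} (h : OK p n w M W CM RM m s QM X) :
    IsCode (fun g : SpecialLinearGroup (Fin n) (ZMod p) => code w g.1) (mulC p n w W CM RM m s QM) (oneC n w) :=
  ⟨fun _ _ e => Subtype.ext (h.code_injective e), fun g k => h.mulC_code g.1 k.1, h.code_one⟩

theorem ok19 : OK 19 2 20 1048575 40 0xfffff00000fffff 0xffffffffff 863 14 0x3f0003f0003f0003f 648 :=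
  ok_of_okB (by decide +kernel)

theorem ok3 : OK 3 4 8 255 32 0xff000000ff000000ff000000ff 0xffffffff 11 5 0x7070707070707070707070707070707 16 :=
  ok_of_okB (by decide +kernel)

/-- generators -/
def a2 : SpecialLinearGroup (Fin 2) (ZMod 19) := ⟨!![0, 18; 1, 0], by decide +kernel⟩
/-- generators -/
def b2 : SpecialLinearGroup (Fin 2) (ZMod 19) := ⟨!![1, 3; 7, 3], by decide +kernel⟩
/-- generators -/
def a4 : SpecialLinearGroup (Fin 4) (ZMod 3) := ⟨!![0, 2, 2, 2; 1, 1, 2, 2; 0, 2, 2, 1; 1, 0, 2, 0], by decide +kernel⟩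
/-- generators -/
def b4 : SpecialLinearGroup (Fin 4) (ZMod 3) := ⟨!![0, 0, 0, 2; 1, 0, 0, 2; 0, 1, 0, 2; 0, 0, 1, 2], by decide +kernel⟩
/-- a monomial matrix -/
def w4 : SpecialLinearGroup (Fin 4) (ZMod 3) := ⟨!![0, 1, 0, 0; 0, 0, 1, 0; 0, 0, 0, 1; 2, 0, 0, 0], by decide +kernel⟩

instance : Fact (Nat.Prime 19) := ⟨by norm_num⟩

theorem gen2 : Subgroup.closure {a2, b2} = ⊤ := by
  have k := fun g => mem_w (isCode_SL ok19) (a := a2) (b := b2) (x := 0x10001200000) (y := 0x3000070000300001)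
    (by decide +kernel) (by decide +kernel)
    [(0x1000000000100001, [0, 1, 0, 1, 1, 1, 1, 0, 1, 1, 0, 1, 1, 1, 0, 1, 0, 1]),
      (0x1000010000000001, [1, 0, 1, 1, 0, 1, 1, 1, 1, 0, 1, 0, 1, 1, 0, 1])] (by decide +kernel) (g := g)
  refine SL.eq_top_of_transvection_mem _ fun i j hij c => ?_
  have h1 : transvection hij (1 : ZMod 19) ∈ Subgroup.closure {a2, b2} := k _ (by revert i j; decide +kernel)
  have h2 : ∀ n : ℕ, transvection hij (n : ZMod 19) ∈ Subgroup.closure {a2, b2} := fun n => by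
    induction n with
    | zero => rw [Nat.cast_zero, show transvection hij (0 : ZMod 19) = 1 from Subtype.ext (by simp)]; exact one_mem _
    | succ n ih => rw [Nat.cast_succ, transvection_add]; exact mul_mem ih h1
  exact ZMod.natCast_zmod_val c ▸ h2 c.val

theorem gen4 : Subgroup.closure {a4, b4} = ⊤ := by
  have k := fun g => mem_w (isCode_SL ok3) (a := a4) (b := b4) (x := 0x20001010202000202010102020200)
    (y := 0x2010000020001000200000102000000) (by decide +kernel) (by decide +kernel)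
    [(0x1000000000100000000010000000101, [1, 1, 0, 1, 0, 1, 1, 0, 1, 1, 0, 1, 1, 1, 0, 1, 1, 1, 1, 0, 1, 1, 1, 0, 1, 1, 0, 1,
      0, 1, 1, 1]), (0x2010000000001000000000100, [1, 1, 1, 0, 1, 1, 1, 0, 1, 1, 0, 1, 1, 0, 1, 1, 0, 1, 1, 1, 0, 1, 0, 1, 1,
      0, 1, 1, 1, 0, 1, 0, 1, 1, 1, 1, 0, 1])] (by decide +kernel) (g := g)
  rw [eq_top_iff, ← KSG.sl_top_of_small (n := 2) (F := ZMod 3) (by simp) (KSG.isMono_cyc (w := w4) (by decide +kernel)),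
    Subgroup.closure_le]
  rintro _ (rfl | rfl) <;> exact k _ (by decide +kernel)

end GenL

open GenL CL.CG Matrix.SpecialLinearGroup in
theorem gen_L219 {F : Type*} [Field F] [Fintype F] (h : Fintype.card F = 19) :
    ∃ a b : Matrix.ProjectiveSpecialLinearGroup (Fin 2) F, a ^ 2 = 1 ∧ b ^ 5 = 1 ∧ (a * b) ^ 5 = 1 ∧ b ≠ 1 ∧ a * b ≠ 1 ∧
      Subgroup.closure {a, b} = ⊤ := by
  let f : ZMod 19 ≃+* F := ZMod.ringEquivOfPrime F (by norm_num) h
  have C := isCode_SL ok19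
  have z : ∀ g : Matrix.SpecialLinearGroup (Fin 2) (ZMod 19), g.1 = -1 →
      (QuotientGroup.mk' (Subgroup.center _)).comp (map (n := Fin 2) f.toRingHom) g = 1 := fun g hg =>
    (QuotientGroup.eq_one_iff _).2 (Subgroup.mem_center_iff.2 fun k => Subtype.ext (by
      rw [coe_mul, coe_mul, map_apply_coe, hg, map_neg, map_one, mul_neg, neg_mul, mul_one, one_mul]))
  have li : ∀ g, map (n := Fin 2) f.symm.toRingHom (map f.toRingHom g) = g := fun g => by ext i j; simp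
  have ri : ∀ g, map (n := Fin 2) f.toRingHom (map f.symm.toRingHom g) = g := fun g => by ext i j; simp
  refine gen_of ((QuotientGroup.mk' (Subgroup.center _)).comp (map f.toRingHom))
    ((QuotientGroup.mk'_surjective _).comp (Function.RightInverse.surjective ri)) (fun g e k => ?_) (t := a2)
    (z _ (by decide +kernel)) ?_ (z _ ?_) (by decide +kernel) (by decide +kernel) gen2
  · refine Function.LeftInverse.injective li ?_
    rw [map_mul, map_mul]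
    exact Subgroup.mem_center_iff.1 ((QuotientGroup.eq_one_iff _).1 e) _
  · rw [C.inj (a₁ := b2 ^ 5) (a₂ := 1) (by rw [← C.powC_eq, C.map_one]; decide +kernel), map_one]
  · rw [C.inj (a₁ := (a2 * b2) ^ 5) (a₂ := a2 * a2) (by rw [← C.powC_eq, ← C.map_mul, ← C.map_mul]; decide +kernel)]
    decide +kernel

open GenL CL.CG in
theorem gen_L43 : ∃ a b : Matrix.ProjectiveSpecialLinearGroup (Fin 4) (ZMod 3), a ^ 2 = 1 ∧ b ^ 5 = 1 ∧
    (a * b) ^ 5 = 1 ∧ b ≠ 1 ∧ a * b ≠ 1 ∧ Subgroup.closure {a, b} = ⊤ := by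
  have C := isCode_SL ok3
  refine gen_of (QuotientGroup.mk' (Subgroup.center _)) (QuotientGroup.mk'_surjective _)
    (fun g e => Subgroup.mem_center_iff.1 ((QuotientGroup.eq_one_iff _).1 e)) (t := a4) ?_ ?_ ?_ ?_ ?_ gen4
  · rw [C.inj (a₁ := a4 ^ 2) (a₂ := 1) (by rw [← C.powC_eq, C.map_one]; decide +kernel), map_one]
  · rw [C.inj (a₁ := b4 ^ 5) (a₂ := 1) (by rw [← C.powC_eq, C.map_one]; decide +kernel), map_one]
  · rw [C.inj (a₁ := (a4 * b4) ^ 5) (a₂ := 1) (by rw [← C.powC_eq, ← C.map_mul, C.map_one]; decide +kernel), map_one]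
  · rw [ne_eq, ← C.inj.eq_iff, ← C.map_mul, ← C.map_mul]; decide +kernel
  · rw [ne_eq, ← C.inj.eq_iff, ← C.map_mul, ← C.map_mul, ← C.map_mul, ← C.map_mul]; decide +kernel

open GenL CL.CG CL.K in
theorem gen_A13 {a b : alternatingGroup (Fin 13)} (ha : (a : Equiv.Perm (Fin 13)) = c[0, 7, 5] * c[12, 9, 2])
    (hb : (b : Equiv.Perm (Fin 13)) = c[0, 1, 2] * c[3, 4, 5] * c[6, 7, 8] * c[9, 10, 11]) :
    Subgroup.closure {a, b} = ⊤ := by
  have C := (isCode_perm (Enc.fin 12) (w := 4) (M := 15) ⟨rfl, by decide⟩).comp (alternatingGroup (Fin 13)).subtype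
    Subtype.val_injective
  have k := fun g => mem_w C (a := a) (b := b) (x := 0x9ba2856043c17) (y := 0xc9ba687354021)
    (by rw [Subgroup.subtype_apply, ha]; decide +kernel) (by rw [Subgroup.subtype_apply, hb]; decide +kernel)
    [(0xcba9876543021, [0, 1, 1, 0, 0, 1, 0, 1, 0, 1, 1, 0, 1, 0, 0, 1, 1, 0, 1, 0, 1, 1, 0, 1, 0, 0, 1, 0, 1, 0,
    0]), (0xcba9876540231, [1, 0, 0, 1, 0, 1, 0, 1, 0, 1, 1, 0, 0, 1, 1, 0, 0, 1, 0, 1, 0, 0, 1, 1, 0, 0, 1, 0, 1,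
    1]), (0xcba9876503241, [0, 1, 1, 0, 0, 1, 0, 0, 1, 0, 0, 1, 1, 0, 1, 1, 0, 1, 0, 0, 1, 1, 0, 0, 1, 1, 0, 1, 0,
    1]), (0xcba9876043251, [1, 1, 0, 0, 1, 1, 0, 1, 0, 1, 0, 0, 1, 1, 0, 0, 1, 1, 0, 0, 1, 0, 1, 0]),
    (0xcba9870543261, [1, 0, 0, 1, 0, 1, 1, 0, 1, 1, 0, 0, 1, 1, 0, 1, 0, 1, 0, 0, 1, 1, 0, 0, 1, 1, 0, 0, 1, 0,
    1, 1, 0, 0, 1, 1, 0, 1, 1]), (0xcba9806543271, [1, 1, 0, 0, 1, 1, 0, 1, 0, 1, 0, 1, 1, 0, 0, 1, 1, 0, 0, 1, 0,
    1, 0, 0]), (0xcba9076543281, [1, 0, 1, 0, 0, 1, 1, 0, 1, 0, 1, 1, 0, 1, 0, 0, 1, 1, 0, 1, 0, 1]),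
    (0xcba0876543291, [1, 1, 0, 1, 1, 0, 0, 1, 0, 1, 0, 1, 1, 0, 0, 1, 1, 0, 1, 0, 1, 1, 0, 0, 1, 1, 0, 0, 1, 0,
    1, 0, 1]), (0xcb098765432a1, [1, 0, 0, 1, 0, 1, 1, 0, 1, 0, 0, 1, 1, 0, 1, 0, 1, 1, 0, 1, 0, 0, 1, 1, 0, 0, 1,
    1]), (0xc0a98765432b1, [1, 0, 0, 1, 0, 0, 1, 1, 0, 1, 0, 1, 1, 0, 0, 1, 0, 1, 1, 0, 1, 0, 0, 1]),
    (0xba98765432c1, [1, 1, 0, 0, 1, 1, 0, 0, 1, 0, 0, 1, 1, 0, 1, 0, 0, 1, 1, 0, 0, 1, 0, 1, 1, 0, 1, 0, 0, 1])] (by decide +kernel) (g := g)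
  rw [eq_top_iff, ← AltPres.closure_gen 11, Subgroup.closure_le]
  rintro _ ⟨i, rfl⟩
  exact k _ (by revert i; decide +kernel)

end CL.E72
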