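/-
Fixed spaces of 3-groups in characteristic two.
-/
import Cfsg.Agent.KSG.E83.Cod

set_option autoImplicit false

namespace CL.E72
open Module Function Finset Module.End CL.E83

/-- the field with two elements -/
abbrev F2 := ZMod 2

variable {V : Type*} [AddCommGroup V] [Module F2 V]

theorem mem_fx {a : End F2 V} {v : V} : v ∈ a.eigenspace 1 ↔ a v = v := by rw [mem_eigenspace_iff, one_smul]

theorem add_self2 (v : V) : v + v = 0 := by rw [← two_smul F2, show (2 : F2) = 0 from rfl, zero_smul]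

/-- the dimension -/
noncomputable def dm (U : Submodule F2 V) : ℕ := finrank F2 U

variable [FiniteDimensional F2 V]

theorem dm_sup (U W : Submodule F2 V) : dm (U ⊔ W) + dm (U ⊓ W) = dm U + dm W :=
  Submodule.finrank_sup_add_finrank_inf_eq U W

theorem dm_mono {U W : Submodule F2 V} (h : U ≤ W) : dm U ≤ dm W := Submodule.finrank_mono h

theorem indep {C : Submodule F2 V} (l : List (Submodule F2 V × End F2 V)) (h1 : ∀ p ∈ l, C ≤ p.1 ∧ ∀ v ∈ p.1, p.2 v = v)
    (h2 : l.Pairwise fun p q => ∀ v ∈ q.1, p.2 v ∈ C) : (l.map fun p => dm p.1).sum + dm C =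
      dm (l.foldr (fun p S => p.1 ⊔ S) C) + l.length * dm C := by
  induction l with
  | nil => simp
  | cons p l ih =>
    obtain ⟨h2, h3⟩ := List.pairwise_cons.1 h2
    obtain ⟨h1, h4⟩ := List.forall_mem_cons.1 h1
    have h5 : ∀ m : List (Submodule F2 V × End F2 V), (∀ q ∈ m, ∀ v ∈ q.1, p.2 v ∈ C) →
        C ≤ m.foldr (fun p S => p.1 ⊔ S) C ∧ m.foldr (fun p S => p.1 ⊔ S) C ≤ C.comap p.2 := fun m hm => by
      induction m with
      | nil => exact ⟨le_rfl, fun v hv => show p.2 v ∈ C by rwa [h1.2 v (h1.1 hv)]⟩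
      | cons q m ih =>
        obtain ⟨a, b⟩ := List.forall_mem_cons.1 hm
        exact ⟨(ih b).1.trans le_sup_right, sup_le a (ih b).2⟩
    have h6 := dm_sup p.1 (l.foldr (fun p S => p.1 ⊔ S) C)
    rw [show p.1 ⊓ _ = C from le_antisymm (fun v hv => h1.2 v hv.1 ▸ (h5 l h2).2 hv.2) (le_inf h1.1 (h5 l h2).1)] at h6
    have := ih h4 h3
    simp only [List.map_cons, List.sum_cons, List.foldr_cons, List.length_cons, add_mul]
    omega

theorem nine {W : Submodule F2 V} {g a : End F2 V} (hg : ∀ v ∈ W, g v ∈ W) (ha : ∀ v ∈ W, a v ∈ W)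
    (hc : ∀ v ∈ W, a (g v) = g (a v)) (g3 : ∀ v ∈ W, g (g (g v)) = v) (a3 : ∀ v ∈ W, a (a (a v)) = v) :
    dm (W ⊓ g.eigenspace 1) + dm (W ⊓ a.eigenspace 1) + dm (W ⊓ (g * a).eigenspace 1) +
      dm (W ⊓ (g * (g * a)).eigenspace 1) = dm W + 3 * dm (W ⊓ g.eigenspace 1 ⊓ a.eigenspace 1) := by
  have k0 : ∀ x : End F2 V, (∀ v ∈ W, x v ∈ W ∧ x (x (x v)) = v) → ∀ v ∈ W, (1 + x + x * x) v ∈ W ⊓ x.eigenspace 1 :=
    fun x hx v hv => ⟨add_mem (add_mem hv (hx v hv).1) (hx _ (hx v hv).1).1, mem_fx.2 (by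
      simp only [LinearMap.add_apply, mul_apply, one_apply, map_add, (hx v hv).2]; abel)⟩
  have k1 : ∀ x y : End F2 V, (∀ v ∈ W, x v ∈ W ∧ x (x (x v)) = v) → (∀ v ∈ W, y (x v) = x (y v)) →
      (∀ v ∈ W, x v = v → y v = v → g v = v ∧ a v = v) → ∀ v ∈ W ⊓ y.eigenspace 1,
      (1 + x + x * x) v ∈ W ⊓ g.eigenspace 1 ⊓ a.eigenspace 1 := fun x y hx hy h v hv => by
    have h1 := k0 x hx v hv.1
    have h2 := h _ h1.1 (mem_fx.1 h1.2) (by
      simp only [LinearMap.add_apply, mul_apply, one_apply, map_add, hy _ (hx v hv.1).1, hy v hv.1, mem_fx.1 hv.2])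
    exact ⟨⟨h1.1, mem_fx.2 h2.1⟩, mem_fx.2 h2.2⟩
  have k2 : ∀ x : End F2 V, ∀ v ∈ W ⊓ x.eigenspace 1, (1 + x + x * x) v = v := fun x v hv => by
    simp only [LinearMap.add_apply, mul_apply, one_apply, mem_fx.1 hv.2, add_self2, zero_add]
  have p1 : ∀ v ∈ W, g v ∈ W ∧ g (g (g v)) = v := fun v hv => ⟨hg v hv, g3 v hv⟩
  have p2 : ∀ v ∈ W, a v ∈ W ∧ a (a (a v)) = v := fun v hv => ⟨ha v hv, a3 v hv⟩
  have p3 : ∀ v ∈ W, (g * a) v ∈ W ∧ (g * a) ((g * a) ((g * a) v)) = v := fun v hv =>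
    ⟨hg _ (ha v hv), by simp (maxDischargeDepth := 9) [hc, hg, ha, hv, g3, a3]⟩
  have p4 : ∀ v ∈ W, (g * (g * a)) v ∈ W ∧ (g * (g * a)) ((g * (g * a)) ((g * (g * a)) v)) = v := fun v hv =>
    ⟨hg _ (hg _ (ha v hv)), by simp (maxDischargeDepth := 9) [hc, hg, ha, hv, g3, a3]⟩
  have q1 : ∀ v ∈ W, g v = v → g (a v) = v → g v = v ∧ a v = v := fun v hv h1 h2 =>
    ⟨h1, by rw [← h1, hc v hv, h2, h1]⟩
  have h := indep (C := W ⊓ g.eigenspace 1 ⊓ a.eigenspace 1)
    ([g, a, g * a, g * (g * a)].map fun x => (W ⊓ x.eigenspace 1, 1 + x + x * x)) (by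
      simp only [List.map_cons, List.map_nil, List.forall_mem_cons]
      refine ⟨⟨inf_le_left, k2 _⟩, ⟨fun v hv => ⟨hv.1.1, hv.2⟩, k2 _⟩, ⟨fun v hv => ⟨hv.1.1, mem_fx.2 ?_⟩, k2 _⟩,
        ⟨fun v hv => ⟨hv.1.1, mem_fx.2 ?_⟩, k2 _⟩, by simp⟩ <;> simp only [mul_apply, mem_fx.1 hv.2, mem_fx.1 hv.1.2]) (by
      simp only [List.map_cons, List.map_nil, List.pairwise_cons, List.forall_mem_cons]
      refine ⟨⟨k1 _ _ p1 hc fun v _ h1 h2 => ⟨h1, h2⟩, k1 _ _ p1 (fun v hv => by simp [hc, hv]) q1,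
        k1 _ _ p1 (fun v hv => by simp [hc, hv]) fun v hv h1 h2 => q1 v hv h1 ?_, by simp⟩,
        ⟨k1 _ _ p2 (fun v hv => by simp [hc, ha, hv]) fun v hv h1 h2 => ⟨by simpa [h1] using h2, h1⟩,
        k1 _ _ p2 (fun v hv => by simp (maxDischargeDepth := 9) [hc, hg, ha, hv]) fun v hv h1 h2 => ⟨?_, h1⟩, by simp⟩,
        ⟨k1 _ _ p3 (fun v hv => by simp (maxDischargeDepth := 9) [hc, hg, ha, hv]) fun v hv h1 h2 => q1 v hv ?_ h1, by simp⟩, by simp⟩
      · rw [← hc v hv, h1, ← g3 _ (ha v hv), show g (g (a v)) = v from h2, h1]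
      · rw [mul_apply, mul_apply, h1] at h2
        rw [← h2, g3 v hv, h2]
      · rw [mul_apply g, h1] at h2
        exact h2)
  simp only [List.map_cons, List.map_nil, List.sum_cons, List.sum_nil, List.foldr_cons, List.foldr_nil, List.length_cons,
    List.length_nil] at h
  rw [show (W ⊓ g.eigenspace 1) ⊔ _ = W from le_antisymm (by simp [inf_assoc]) fun v hv => ?_] at h
  · omega
  have e : v = (1 + g + g * g) v + ((1 + a + a * a) v + ((1 + g * a + g * a * (g * a)) v +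
      ((1 + g * (g * a) + g * (g * a) * (g * (g * a))) v + (1 + g + g * g) ((1 + a + a * a) v)))) := by
    simp (maxDischargeDepth := 9) only [LinearMap.add_apply, mul_apply, one_apply, map_add, hc, hg, ha, hv, g3]
    refine ((add_zero v).symm.trans (congrArg (v + ·) (add_self2 (v + v + g v + g (g v) + a v + a (a v) + g (a v) +
      g (g (a (a v))) + g (g (a v)) + g (a (a v)))).symm)).trans ?_
    abel
  rw [e]
  exact Submodule.add_mem_sup (k0 g p1 v hv) (Submodule.add_mem_sup (k0 a p2 v hv) (Submodule.add_mem_sup (k0 _ p3 v hv)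
    (Submodule.add_mem_sup (k0 _ p4 v hv) (k1 g a p1 hc (fun _ _ a b => ⟨a, b⟩) _ (k0 a p2 v hv)))))

/-- twice the rational part of the Brauer character value of a 3-element on a subspace -/
noncomputable def T (W : Submodule F2 V) (a : End F2 V) : ℤ :=
  3 * (dm (W ⊓ a.eigenspace 1) : ℤ) - dm (W ⊓ (a ^ 3).eigenspace 1)

omit [FiniteDimensional F2 V] in
theorem cube_apply (a : End F2 V) (v : V) : (a ^ 3) v = a (a (a v)) := by simp [pow_succ]

theorem T_step {W : Submodule F2 V} {g a : End F2 V} (hg : ∀ v ∈ W, g v ∈ W) (ha : ∀ v ∈ W, a v ∈ W)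
    (hc : ∀ v ∈ W, a (g v) = g (a v)) (g3 : ∀ v ∈ W, g (g (g v)) = v) :
    T W a + T W (g * a) + T W (g * (g * a)) = 3 * T (W ⊓ g.eigenspace 1) a := by
  have h := nine (W := W ⊓ (a ^ 3).eigenspace 1) (g := g) (a := a) (fun v hv => ⟨hg v hv.1, mem_fx.2 (by
      rw [cube_apply, hc v hv.1, hc _ (ha v hv.1), hc _ (ha _ (ha v hv.1)), ← cube_apply a v, mem_fx.1 hv.2])⟩)
    (fun v hv => ⟨ha v hv.1, mem_fx.2 (by rw [cube_apply, ← cube_apply a v, mem_fx.1 hv.2])⟩) (fun v hv => hc v hv.1)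
    (fun v hv => g3 v hv.1) fun v hv => (cube_apply a v).symm.trans (mem_fx.1 hv.2)
  have e : ∀ (U : Submodule F2 V) (x : End F2 V), (∀ v ∈ U, (x ^ 3) v = (a ^ 3) v) →
      U ⊓ (a ^ 3).eigenspace 1 ⊓ x.eigenspace 1 = U ⊓ x.eigenspace 1 ∧
        U ⊓ (x ^ 3).eigenspace 1 = U ⊓ (a ^ 3).eigenspace 1 := fun U x hx =>
    ⟨le_antisymm (fun v hv => ⟨hv.1.1, hv.2⟩) fun v hv => ⟨⟨hv.1, mem_fx.2 (by
      rw [← hx v hv.1, cube_apply]; simp only [mem_fx.1 hv.2])⟩, hv.2⟩,
      Submodule.ext fun v => and_congr_right fun hv => mem_fx.trans (Iff.trans (by rw [hx v hv]) mem_fx.symm)⟩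
  have e1 := e W (g * a) fun v hv => by simp (maxDischargeDepth := 9) [cube_apply, hc, hg, ha, hv, g3]
  have e2 := e W (g * (g * a)) fun v hv => by simp (maxDischargeDepth := 9) [cube_apply, hc, hg, ha, hv, g3]
  rw [(e W a fun _ _ => rfl).1, e1.1, e2.1, inf_right_comm W, (e _ a fun _ _ => rfl).1] at h
  rw [T, T, T, T, e1.2, e2.2]
  omega

omit [FiniteDimensional F2 V] in
theorem T_triv {W : Submodule F2 V} {a : End F2 V} (h : ∀ v ∈ W, a v = v) : T W a = 2 * dm W := by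
  rw [T, inf_eq_left.2 fun v hv => mem_fx.2 (h v hv), inf_eq_left.2 fun v hv => mem_fx.2 (by
    rw [cube_apply]; simp only [h v hv])]
  ring

/-- all products along a series with factors of order three -/
def prods3 {M : Type*} (m : M → M → M) (P : List M) : List M → List M
  | [] => P
  | g :: l => prods3 m P l ++ ((prods3 m P l).map (m g) ++ ((prods3 m P l).map (m g)).map (m g))

/-- a central series -/
def Cen3 : Submodule F2 V → List (End F2 V) → Prop
  | _, [] => True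
  | W, g :: l => (∀ w ∈ W, g (g (g w)) = w) ∧ (∀ h ∈ l, ∀ w ∈ W, h (g w) = g (h w)) ∧ Cen3 (W ⊓ g.eigenspace 1) l

theorem prods3_ind {M : Type*} {m : M → M → M} {P : List M} {Q : M → Prop} (h1 : ∀ a ∈ P, Q a) {l : List M}
    (h : ∀ g ∈ l, ∀ a, Q a → Q (m g a)) : ∀ a ∈ prods3 m P l, Q a := by
  induction l with
  | nil => exact h1
  | cons g l ih =>
    have := ih fun g hg => h g (List.mem_cons_of_mem _ hg)
    have h' := h g List.mem_cons_self
    simp only [prods3, List.mem_append, List.mem_map]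
    rintro a (ha | ⟨a, ha, rfl⟩ | ⟨_, ⟨a, ha, rfl⟩, rfl⟩)
    exacts [this a ha, h' a (this a ha), h' _ (h' a (this a ha))]

theorem sign3 (l : List (End F2 V)) (W : Submodule F2 V) (hW : ∀ g ∈ l, ∀ w ∈ W, g w ∈ W) (h : Cen3 W l) :
    ((prods3 (· * ·) [1] l).map (T W)).sum = 2 * 3 ^ l.length * (dm (fixL W l) : ℤ) := by
  induction l generalizing W with
  | nil => simp [prods3, fixL, T_triv]
  | cons g l ih =>
    obtain ⟨h1, h2, h3⟩ := h
    obtain ⟨hg, hl⟩ := List.forall_mem_cons.1 hW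
    have h4 : ∀ a ∈ prods3 (· * ·) [1] l, ∀ w ∈ W, a w ∈ W ∧ a (g w) = g (a w) :=
      prods3_ind (by simp) fun k hk a ha w hw => ⟨hl k hk _ (ha w hw).1, by
        rw [mul_apply, mul_apply, (ha w hw).2, h2 k hk _ (ha w hw).1]⟩
    rw [prods3, List.map_append, List.map_append, List.sum_append, List.sum_append, List.map_map, List.map_map,
      List.map_map, ← List.sum_map_add, ← List.sum_map_add]
    refine (congrArg List.sum (List.map_congr_left fun a ha => (add_assoc _ _ _).symm.trans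
      (T_step hg (fun w hw => (h4 a ha w hw).1) (fun w hw => (h4 a ha w hw).2) h1))).trans ?_
    rw [List.sum_map_mul_left, ih (W ⊓ g.eigenspace 1) (fun k hk w hw => ⟨hl k hk w hw.1, mem_fx.2 (by
      rw [← h2 k hk w hw.1, mem_fx.1 hw.2])⟩) h3, List.length_cons, fixL]
    ring

theorem sum3 {Q : Type*} [Group Q] [Fintype Q] (h3 : ∀ x : Q, x ^ 3 = 1) (hc : ∀ x y : Q, x * y = y * x)
    (ρ : Q →* End F2 V) (W : Submodule F2 V) (hW : ∀ g, ∀ w ∈ W, ρ g w ∈ W) :
    ∑ x, T W (ρ x) = 2 * Fintype.card Q * (dm (W ⊓ ⨅ x, (ρ x).eigenspace 1) : ℤ) := by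
  induction hn : dm W using Nat.strong_induction_on generalizing W with | _ n ih
  by_cases h : ∀ x, ∀ w ∈ W, ρ x w = w
  · rw [sum_congr rfl fun x _ => T_triv (h x), inf_eq_left.2 fun v hv => (Submodule.mem_iInf _).2 fun x =>
      mem_fx.2 (h x v hv), sum_const, card_univ]
    simp [mul_left_comm, mul_assoc]
  push Not at h
  obtain ⟨z, w, hw, h⟩ := h
  have k : ∀ x v, ρ x (ρ z v) = ρ z (ρ x v) := fun x v => by rw [← mul_apply, ← map_mul, hc, map_mul, mul_apply]
  have h1 := ih _ (hn ▸ Submodule.finrank_lt_finrank_of_lt (inf_le_left.lt_of_ne fun e => h (mem_fx.1 (e.ge hw).2)))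
    (W ⊓ (ρ z).eigenspace 1) (fun g v hv => ⟨hW g v hv.1, mem_fx.2 (by rw [← k, mem_fx.1 hv.2])⟩) rfl
  rw [inf_assoc, inf_eq_right.2 (iInf_le (fun x => (ρ x).eigenspace 1) z)] at h1
  have h2 := sum_congr rfl fun x (_ : x ∈ univ) => T_step (hW z) (hW x) (fun v _ => k x v) fun v _ => by
    rw [← cube_apply, ← map_pow, h3, map_one, one_apply]
  simp only [sum_add_distrib, ← mul_sum, ← map_mul] at h2
  rw [Fintype.sum_equiv (Equiv.mulLeft z) (fun x => T W (ρ (z * (z * x)))) (fun x => T W (ρ (z * x))) fun _ => rfl,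
    Fintype.sum_equiv (Equiv.mulLeft z) (fun x => T W (ρ (z * x))) (fun x => T W (ρ x)) fun _ => rfl] at h2
  omega

theorem card_dm (U : Submodule F2 V) : Nat.card U = 2 ^ dm U := by
  rw [Module.natCard_eq_pow_finrank (K := F2), Nat.card_zmod, dm]

theorem cong {W : Submodule F2 V} {g : End F2 V} (hW : ∀ v ∈ W, g v ∈ W) {r N : ℕ} (j : ℕ) (hr : r.Prime)
    (hg : g ^ r ^ N = 1) : 2 ^ dm W ≡ 2 ^ dm (W ⊓ (g ^ r ^ j).eigenspace 1) [MOD r ^ (j + 1)] := by
  have := Module.finite_of_finite F2 (M := V)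
  have hi : Injective g := LeftInverse.injective (g := (g ^ (r ^ N - 1) :)) fun v => by
    rw [← mul_apply, ← pow_succ, Nat.sub_add_cancel (Nat.one_le_pow _ _ hr.pos), hg, one_apply]
  let f : ↥((W : Set V) \ ↑(W ⊓ (g ^ r ^ j).eigenspace 1)) → ↥((W : Set V) \ ↑(W ⊓ (g ^ r ^ j).eigenspace 1)) := fun v =>
    ⟨g v.1, hW _ v.2.1, fun e => v.2.2 ⟨v.2.1, mem_fx.2 (hi (by
      rw [← mul_apply, ← pow_succ', pow_succ, mul_apply, mem_fx.1 e.2]))⟩⟩
  have hf : ∀ k v, (f^[k] v).1 = (g ^ k) v.1 := fun k v => by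
    induction k with
    | zero => rfl
    | succ k ih => rw [iterate_succ_apply', pow_succ', mul_apply, ← ih]
  have h := CL.Chev.pow_dvd_card_of_iterate f hr (N := N) (j := j) (fun v => Subtype.ext (by rw [hf, hg, one_apply]))
    fun v e => v.2.2 ⟨v.2.1, mem_fx.2 (by rw [← hf, e])⟩
  rw [← card_dm, ← card_dm]
  rw [← show _ = Nat.card W from Set.ncard_sdiff_add_ncard_of_subset
    (inf_le_left (a := W) (b := (g ^ r ^ j).eigenspace 1))]
  exact ((Nat.modEq_iff_dvd' (Nat.le_add_left _ _)).2 (by rwa [Nat.add_sub_cancel])).symm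

theorem half (W : Submodule F2 V) {t : End F2 V} (hW : ∀ v ∈ W, t v ∈ W) (h : t * t = 1) :
    dm W ≤ 2 * dm (W ⊓ t.eigenspace 1) := by
  have := finrank_le_ker_add W (1 - t) (L := W ⊓ t.eigenspace 1) fun v hv => ⟨sub_mem hv (hW v hv), mem_fx.2 (by
    rw [LinearMap.sub_apply, one_apply, map_sub, ← mul_apply, h, one_apply, sub_eq_sub_iff_add_eq_add, add_self2, add_self2])⟩
  rw [← eig_one] at this
  simp only [dm]; omega

theorem nofix_act {G A : Type*} [Group G] [Finite G] [AddCommGroup A] [DistribMulAction G A] [Finite A]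
    (hA : Nat.card A = 2 ^ 56) (h2 : ∀ v : A, v + v = 0) {g : G} (hg : g ^ 127 = 1) (h0 : ∀ v : A, g • v = v → v = 0)
    {H : Subgroup G} (hH : IsCoatom H) (X : Subgroup H) [X.Normal]
    (h : X.index ∣ 4 ∧ 2 ^ 56 * Nat.card H < Nat.card G ∨ X.index ∣ 6 ∧ 2 ^ 112 * Nat.card H < Nat.card G) {u : A}
    (hu : ∀ x ∈ X, x • u = u) : u = 0 := by
  classical
  open MulAction Pointwise in
  by_contra hu0
  have k1 : ∀ v : A, (∀ x : H, x • v = v) → v = 0 := fun v hv => by
    by_contra h1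
    have e := (hH.le_iff.1 (show H ≤ stabilizer G v from fun x hx => hv ⟨x, hx⟩)).resolve_left
      fun e => h1 (h0 v (e.ge (Subgroup.mem_top g)))
    have := (stabilizer G v).index_mul_card
    rw [index_stabilizer, e] at this
    have := Nat.mul_le_mul_right (Nat.card H) (hA ▸ Set.ncard_le_card (orbit G v))
    omega
  have := Fact.mk Nat.prime_two
  obtain ⟨P⟩ : Nonempty (Sylow 2 H) := inferInstance
  obtain ⟨⟨v, hv⟩, h3, h4⟩ := P.isPGroup'.exists_fixed_point_of_prime_dvd_card_of_fixed_point (fixedPoints X A)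
    (by simpa using (CL.Chev.pow_dvd_card_of_iterate (α := fixedPoints X A) (fun v => ⟨v.1 + u, fun x => by
      rw [smul_add, v.2 x]; exact congrArg _ (hu x x.2)⟩) Nat.prime_two (N := 1) (j := 0)
      (fun v => Subtype.ext (by simp [add_assoc, h2])) fun v e => hu0 (by simpa using congrArg Subtype.val e)))
    (a := ⟨0, fun x => smul_zero x⟩) fun x => Subtype.ext (smul_zero x)
  have h5 : (stabilizer H v).index ∣ X.index := Subgroup.index_dvd_of_le fun x hx => hv ⟨x, hx⟩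
  have h6 : ¬ 2 ∣ (stabilizer H v).index := fun e => P.not_dvd_index (e.trans
    (Subgroup.index_dvd_of_le fun x hx => congrArg Subtype.val (h3 ⟨x, hx⟩)))
  have h7 : v ≠ 0 := fun e => h4 (Subtype.ext e.symm)
  have h8 : (stabilizer H v).index ≠ 1 := fun e => h7 (k1 v fun x => (Subgroup.index_eq_one.1 e).ge (Subgroup.mem_top x))
  obtain ⟨h9, h⟩ : (stabilizer H v).index = 3 ∧ 2 ^ 112 * Nat.card H < Nat.card G := by
    generalize (stabilizer H v).index = j at *
    rcases h with h | h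
    · have := h5.trans h.1
      have := Nat.le_of_dvd four_pos this
      interval_cases j <;> omega
    · have := h5.trans h.1
      have := Nat.le_of_dvd (by norm_num) this
      refine ⟨?_, h.2⟩
      interval_cases j <;> omega
  rw [index_stabilizer] at h9
  have hO : ∀ x : H, x • orbit H v = orbit H v := fun x => smul_orbit x v
  have hn : (0 : A) ∉ orbit H v := fun ⟨x, hx⟩ => h7 ((smul_eq_zero_iff_eq x).1 hx)
  generalize orbit H v = O at h9 hO hn
  have e := (hH.le_iff.1 (show H ≤ stabilizer G O from fun x hx => hO ⟨x, hx⟩)).resolve_left fun e => by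
    have hm : ∀ a ∈ O, g • a ∈ O := fun a ha => (e.ge (Subgroup.mem_top g) : g • O = O) ▸ Set.smul_mem_smul_set ha
    have := CL.Chev.pow_dvd_card_of_iterate (α := O) (fun a => ⟨g • a.1, hm _ a.2⟩) (by norm_num : Nat.Prime 127)
      (N := 1) (j := 0) (fun a => Subtype.ext (by
        rw [pow_one, ← one_smul G a.1, ← hg, ← smul_iterate_apply]
        exact (Semiconj.iterate_right (f := Subtype.val) (fun _ => rfl) _ a)))
      fun a e => hn (h0 _ (congrArg Subtype.val e) ▸ a.2)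
    rw [Nat.card_coe_set_eq, h9] at this
    omega
  obtain ⟨a, b, c, ab, ac, bc, rfl⟩ := Set.ncard_eq_three.1 h9
  have hs : a + b + c = 0 := k1 _ fun x => by
    have := hO x
    rw [← coe_singleton, ← coe_insert, ← coe_insert, ← coe_smul_finset, coe_inj] at this
    have h1 := sum_image (s := {a, b, c}) (f := id) (g := fun y : A => x • y) fun _ _ _ _ h => MulAction.injective x h
    rw [show image _ _ = _ from this] at h1
    simpa [ab, ac, bc, add_assoc] using h1.symm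
  have hc : c = a + b := by rw [← zero_add c, ← h2 (a + b), add_assoc, hs, add_zero]
  have h1 : stabilizer G (a, b) ≤ stabilizer G ({a, b, c} : Set A) := fun x hx => by
    have := Prod.ext_iff.1 (mem_stabilizer_iff.1 hx)
    simp only [Prod.smul_mk] at this
    simp [mem_stabilizer_iff, Set.smul_set_insert, hc, this]
  have := (stabilizer G (a, b)).index_mul_card
  rw [index_stabilizer] at this
  have := Nat.mul_le_mul (Set.ncard_le_card (orbit G (a, b))) (e ▸ Subgroup.card_le_of_le h1)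
  rw [Nat.card_prod, hA] at this
  omega

omit [FiniteDimensional F2 V] in
/-- no fixed points on the module and on its dual -/
def NoFix {G : Type*} [Group G] (ρ : G →* End F2 V) : Prop :=
  (∀ v, (∀ g, ρ g v = v) → v = 0) ∧ ∀ φ : Dual F2 V, (∀ g v, φ (ρ g v) = φ v) → φ = 0

theorem nofix {G : Type*} [Group G] [Finite G] (ρ : G →* End F2 V) (hV : finrank F2 V = 56) {g : G} (hg : g ^ 127 = 1)
    (h0 : (ρ g).eigenspace 1 = ⊥) {H : Subgroup G} (hH : IsCoatom H) (X : Subgroup H) [X.Normal]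
    (h : X.index ∣ 4 ∧ 2 ^ 56 * Nat.card H < Nat.card G ∨ X.index ∣ 6 ∧ 2 ^ 112 * Nat.card H < Nat.card G) :
    NoFix (ρ.comp (H.subtype.comp X.subtype)) := by
  have := Module.finite_of_finite F2 (M := V)
  have := Module.finite_of_finite F2 (M := Dual F2 V)
  constructor
  · let _ := DistribMulAction.compHom V ρ
    exact fun v hv => nofix_act (by rw [Module.natCard_eq_pow_finrank (K := F2), Nat.card_zmod, hV]) add_self2 hg
      (fun v hv => h0.le (mem_fx.2 hv)) hH X h fun x hx => hv ⟨x, hx⟩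
  · let _ := DistribMulAction.compHom (Dual F2 V) (Representation.dual ρ)
    refine fun φ hφ => nofix_act (by
      rw [Module.natCard_eq_pow_finrank (K := F2), Nat.card_zmod, Subspace.dual_finrank_eq, hV]) add_self2 hg
      (fun φ hφ => LinearMap.ext fun v => ?_) hH X h fun x hx => LinearMap.ext (hφ ⟨x, hx⟩⁻¹)
    obtain ⟨v, rfl⟩ := LinearMap.injective_iff_surjective.1 (LinearMap.ker_eq_bot.1 (eig_one (ρ g) ▸ h0)) v
    have : φ (ρ g⁻¹ (ρ g v)) = φ (ρ g v) := LinearMap.congr_fun hφ _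
    rw [← mul_apply, ← map_mul, inv_mul_cancel, map_one] at this
    simp [← this]

theorem scott {G : Type*} [Group G] {ρ : G →* End F2 V} (h : NoFix ρ) {a b : G} (hab : Subgroup.closure {a, b} = ⊤) :
    dm ((ρ a).eigenspace 1) + dm ((ρ b).eigenspace 1) + dm ((ρ (a * b)).eigenspace 1) ≤ finrank F2 V := by
  have k : ∀ P : G → Prop, P a → P b → P 1 → (∀ x y, P x → P y → P (x * y)) → (∀ x, P x → P x⁻¹) → ∀ x, P x :=
    fun P h1 h2 h3 h4 h5 x => Subgroup.closure_induction (p := fun x _ => P x) (by rintro _ (rfl | rfl) <;> assumption) h3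
      (fun x y _ _ => h4 x y) (fun x _ => h5 x) (hab.ge (Subgroup.mem_top x))
  have e : ∀ x v, ρ x (ρ x⁻¹ v) = v := fun x v => by rw [← mul_apply, ← map_mul, mul_inv_cancel, map_one, one_apply]
  have h1 := CL.Five.scott_lin (ρ a) (ρ b)
  have h2 : LinearMap.ker (1 - ρ a) ⊓ LinearMap.ker (1 - ρ b) = ⊥ := eq_bot_iff.2 fun v hv => h.1 v (k _
    (sub_eq_zero.1 hv.1).symm (sub_eq_zero.1 hv.2).symm (by simp) (fun x y hx hy => by simp [hx, hy])
    fun x hx => CL.AltE.rep_injective ρ x (by rw [e, hx]))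
  have h3 : LinearMap.range (1 - ρ a) ⊔ LinearMap.range (1 - ρ b) = ⊤ := by
    by_contra h3
    obtain ⟨φ, h4, h5⟩ := Submodule.exists_dual_map_eq_bot_of_lt_top (lt_top_iff_ne_top.2 h3) inferInstance
    have h6 : ∀ x, LinearMap.range (1 - ρ x) ≤ LinearMap.range (1 - ρ a) ⊔ LinearMap.range (1 - ρ b) →
        ∀ v, φ (ρ x v) = φ v := fun x hx v => by
      have := h5.le ⟨_, hx ⟨v, rfl⟩, rfl⟩
      rw [Submodule.mem_bot, LinearMap.sub_apply, map_sub, sub_eq_zero] at this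
      exact this.symm
    exact h4 (h.2 φ (k _ (h6 a le_sup_left) (h6 b le_sup_right) (by simp) (fun x y hx hy => by simp [hx, hy])
      fun x hx v => by rw [← hx, e]))
  rw [h2, h3, finrank_bot, finrank_top, ← map_mul] at h1
  rw [eig_one, eig_one, eig_one]
  simp only [dm]; omega

end CL.E72
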